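import Cfsg.Agent.E7P.Base.Act
import Cfsg.Agent.E7P.Br.Pi
import Cfsg.Agent.E7P.Lie.AJor

/-!
# S5932, task EXACT: irreducibility for subspaces of the Lie algebra (helper4)

* `Kf.ex_br_tv` : the bracket with a toral element;
* `Sit.ex_irrl` : a stable subspace of `g` with trivial centraliser lies in no proper parabolic subalgebra.
-/

set_option autoImplicit false
set_option maxRecDepth 100000

namespace Cfsg.Agent.E7P

open Cfsg Cfsg.Lie Matrix Module
open Cfsg.Agent.ChevalleyStructure.RootVec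
open Cfsg.Agent.H943.E7V.Block (D1 rho)
open Cfsg.Agent.R2.T1 Cfsg.Agent.E7P.Kf
open Cfsg.Agent.R2.PX (del)
open Cfsg.Agent.E7P.Br (br del_br br_eq_zero br_anti adM_br br_Ge del_map)

universe u v

namespace Kf

variable {K : Type u} [Field K]

/-- the values of the weights of the adjoint module on a toral element -/
def exVal (l : Fin 7 → K) : chevE7.Idx → K := Sum.elim (fun _ => 0) fun r : Fin chevE7.nroots => rval r (tv l)

theorem exVal_inl (l : Fin 7 → K) (i : Fin chevE7.rank) : exVal l (Sum.inl i) = 0 := rfl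

theorem exVal_inr (l : Fin 7 → K) (r : Fin chevE7.nroots) : exVal l (Sum.inr r) = rval r (tv l) := rfl

theorem ex_cv_inr (r : Fin chevE7.nroots) : cv (ac (Sum.inr r)) = rv r := by rw [ac_inr, rv]

theorem ex_br_single (l : Fin 7 → K) (a : chevE7.Idx) :
    br K (tv l) (Pi.single a 1) = exVal l a • (Pi.single a 1 : chevE7.Idx → K) := by
  rcases a with i | r
  · have h1 : (Pi.single (Sum.inl i) 1 : chevE7.Idx → K) = tv (Pi.single i 1) := by
      funext j
      rcases j with j | s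
      · rw [tv_inl]
        by_cases h : j = i
        · subst h
          rw [Pi.single_eq_same]
          exact (Pi.single_eq_same (M := fun _ : Fin 7 => K) j 1).symm
        · rw [Pi.single_eq_of_ne fun e => h (Sum.inl_injective e)]
          exact (Pi.single_eq_of_ne (M := fun _ : Fin 7 => K) h 1).symm
      · rw [tv_inr, Pi.single_eq_of_ne Sum.inr_ne_inl]
    rw [exVal_inl, zero_smul, br_eq_zero, h1, Cm, La.del_tv, La.del_tv,
      diagonal_mul_diagonal, diagonal_mul_diagonal]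
    simp only [mul_comm]
  · refine Mu.del_injective ?_
    rw [del_br, map_smul, R2.PX.del_inr, La.tv_NM l r.2, exVal_inr]

/-- the bracket with a toral element -/
theorem ex_br_tv (l : Fin 7 → K) (y : chevE7.Idx → K) (a : chevE7.Idx) : br K (tv l) y a = exVal l a * y a := by
  conv_lhs => rw [pi_eq_sum_univ' y, map_sum, Finset.sum_apply]
  rw [Finset.sum_eq_single a]
  · rw [map_smul, ex_br_single, Pi.smul_apply, Pi.smul_apply, Pi.single_eq_same, smul_eq_mul, smul_eq_mul, mul_one,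
      mul_comm]
  · intro c _ hc
    rw [map_smul, ex_br_single, Pi.smul_apply, Pi.smul_apply, Pi.single_eq_of_ne hc.symm, smul_zero, smul_zero]
  · intro h
    exact absurd (Finset.mem_univ _) h

theorem ex_jump {m : Fin 7 → ℤ} {l : Fin 7 → K} (hl : ∀ r < 126, pc r m = 0 → rval r (tv l) = 0) {y : chevE7.Idx → K}
    (hy : y ∈ Ge K ac (cv m) 0) : br K y (tv l) ∈ Ge K ac (cv m) 1 := by
  rw [br_anti]
  refine neg_mem fun a ha => ?_
  rw [ex_br_tv] at ha
  rcases a with i | r
  · rw [exVal_inl, zero_mul] at ha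
    exact absurd rfl ha
  · have h1 := hy _ (right_ne_zero_of_mul ha)
    rw [exVal_inr] at ha
    have h2 : pc r m ≠ 0 := fun h => left_ne_zero_of_mul ha (hl r r.2 h)
    rw [ex_cv_inr, bf_cv_rv m r.2] at h1 ⊢
    have h3 : (0 : ℤ) ≤ pc r m := by exact_mod_cast h1
    exact_mod_cast (by omega : (1 : ℤ) ≤ pc r m)

theorem ex_span {I : Type*} [Fintype I] [DecidableEq I] {x0 : I → K} {j0 : I} (hj0 : x0 j0 ≠ 0) (v : I → K) :
    v ∈ Submodule.span K (Set.range fun i => if i = j0 then x0 else Pi.single i 1) := by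
  have h4 : x0 ∈ Submodule.span K (Set.range fun i => if i = j0 then x0 else (Pi.single i 1 : I → K)) :=
    Submodule.subset_span ⟨j0, if_pos rfl⟩
  have h5 : v - (v j0 / x0 j0) • x0 ∈
      Submodule.span K (Set.range fun i => if i = j0 then x0 else (Pi.single i 1 : I → K)) := by
    rw [pi_eq_sum_univ' (v - (v j0 / x0 j0) • x0)]
    refine Submodule.sum_mem _ fun j _ => ?_
    by_cases hj : j = j0
    · rw [hj, Pi.sub_apply, Pi.smul_apply, smul_eq_mul, div_mul_cancel₀ _ hj0, sub_self, zero_smul]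
      exact zero_mem _
    · exact Submodule.smul_mem _ _ (Submodule.subset_span ⟨j, if_neg hj⟩)
  have h6 := add_mem h5 (Submodule.smul_mem _ (v j0 / x0 j0) h4)
  rwa [sub_add_cancel] at h6

/-- the minors of the adjoint maps are unstable -/
theorem ex_unst (h2 : (2 : K) ≠ 0) {W : Submodule K (chevE7.Idx → K)} (hC : ∀ y, (∀ x ∈ W, Cm x y) → y = 0) {g : Gh K}
    {m : Fin 7 → ℤ} {l : Fin 7 → K} (hl : ∀ r < 126, pc r m = 0 → rval r (tv l) = 0) (hl1 : l ≠ 0)
    (hg : ∀ x ∈ W, adM K g⁻¹ *ᵥ x ∈ Ge K ac (cv m) 0) :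
    Unst (fun i : chevE7.Idx → chevE7.Idx => ∑ t, ac (i t)) (powR _ (adM K))
      (PX chevE7.Idx fun x : W => br K (x : chevE7.Idx → K)) := by
  obtain ⟨j0, hj, hj0⟩ : ∃ j0 : chevE7.Idx, tv l j0 ≠ 0 ∧ ac j0 = 0 := by
    obtain ⟨j, hj⟩ := Function.ne_iff.1 hl1
    exact ⟨Sum.inl j, hj, rfl⟩
  refine unst_PX ?_ g (cv m) fun b x i hd => ?_
  · let B := Module.finBasis K W
    obtain ⟨_, ⟨b, x, rfl⟩, hv⟩ := PX_ne (τ := chevE7.Idx) (φ := fun s => br K (B s : chevE7.Idx → K)) ⊤
      (by rw [finrank_top, finrank_fintype_fun_eq_card]) fun y _ h0 => hC y fun x hx => by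
        rw [← br_eq_zero, show x = ((⟨x, hx⟩ : W) : chevE7.Idx → K) from rfl, ← B.sum_repr ⟨x, hx⟩, Submodule.coe_sum,
          map_sum, LinearMap.sum_apply]
        exact Finset.sum_eq_zero fun s _ => by rw [Submodule.coe_smul, map_smul, LinearMap.smul_apply, h0 s, smul_zero]
    exact ⟨_, ⟨b, fun t => B (x t), rfl⟩, hv⟩
  let b0 : chevE7.Idx → chevE7.Idx → K := fun s => if s = j0 then tv l else Pi.single s 1
  let n : chevE7.Idx → ℝ := fun s => bf (cv m) (cv (ac s)) + if s = j0 then 1 else 0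
  let f : chevE7.Idx → (chevE7.Idx → K) →ₗ[K] K := fun t =>
    LinearMap.proj (i t) ∘ₗ toLin' (adM K g⁻¹) ∘ₗ br K (x t : chevE7.Idx → K)
  have hf : ∀ t y, f t (adM K g *ᵥ y) = br K (adM K g⁻¹ *ᵥ (x t : chevE7.Idx → K)) y (i t) := by
    intro t y
    show (adM K g⁻¹ *ᵥ br K (x t : chevE7.Idx → K) (adM K g *ᵥ y)) (i t) = _
    rw [adM_br h2, mulVec_inv]
  have h1 := sum_le_of_det f b (fun s => adM K g *ᵥ b0 s) ⊥ (fun t y hy => by rw [hy, map_zero]) (fun y => ?_) n
    (fun t => bf (cv m) (cv (ac (i t)))) (fun t s hts => ?_) hd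
  · refine lt_of_lt_of_le ?_ h1
    have h3 := congrArg (bf (cv m)) sum_ac
    rw [map_sum, map_zero] at h3
    rw [Finset.sum_add_distrib, h3, Finset.sum_ite_eq', if_pos (Finset.mem_univ _), zero_add]
    exact one_pos
  · refine Submodule.mem_sup_left ?_
    have h5 := Submodule.mem_map_of_mem (f := toLin' (adM K g)) (ex_span (x0 := tv l) (j0 := j0) hj
      (adM K g⁻¹ *ᵥ y))
    rw [Submodule.map_span, ← Set.range_comp, toLin'_apply, mulVec_inv'] at h5
    exact h5
  · rw [hf] at hts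
    by_cases hs : s = j0
    · have e1 : b0 s = tv l := if_pos hs
      have e2 : n s = 1 := by
        show bf (cv m) (cv (ac s)) + (if s = j0 then 1 else 0) = _
        rw [if_pos hs, hs, hj0, cv_zero, map_zero, zero_add]
      rw [e1] at hts
      rw [e2]
      exact ex_jump hl (hg _ (x t).2) _ hts
    · have e1 : b0 s = Pi.single s 1 := if_neg hs
      have e2 : n s = 0 + bf (cv m) (cv (ac s)) := by
        show bf (cv m) (cv (ac s)) + (if s = j0 then 1 else 0) = _
        rw [if_neg hs, add_zero, zero_add]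
      rw [e1] at hts
      rw [e2]
      refine br_Ge (hg _ (x t).2) (fun a ha => ?_) _ hts
      rw [show a = s from by_contra fun h => ha (Pi.single_eq_of_ne h _)]

theorem ex_Ge_nL [Infinite K] {I : Type*} [Fintype I] [DecidableEq I] {c : I → Fin 7 → ℤ} {R : Gh K →* Matrix I I K}
    (hR : WRep c R) (l : List (Fin 7)) {β : E} {d : ℝ} {x : I → K} (hx : x ∈ Ge K c β d) :
    R (nL K l) *ᵥ x ∈ Ge K c (wL l β) d := by
  intro i hi
  obtain ⟨j, h1, h2⟩ := exists_col hi
  rw [hR.mon_nL l i j h1, wL_iso]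
  exact hx j h2

theorem ex_Ge_face {β : E} (hβ : Dom β) {i : Fin 7} (hi : β i ≠ 0) :
    Ge K ac β 0 ≤ Ge K ac (cv (Pi.single i 1)) 0 := by
  intro x hx a ha
  rcases a with j | r
  · rw [ac_inl, cv_zero, map_zero]
  · have h0 := hx _ ha
    rw [ex_cv_inr] at h0 ⊢
    have h1 : xs K r 1 ∈ Pl K (cv (Pi.single i 1)) := by
      refine Pl_le_of_supp hβ (fun j => ?_) (fun j hj => ?_) (xs_mem_Pl r.2 h0 1)
      · show (0 : ℝ) ≤ (((Pi.single i 1 : Fin 7 → ℤ) j : ℤ) : ℝ)
        rw [Pi.single_apply]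
        split_ifs <;> simp
      · show (((Pi.single i 1 : Fin 7 → ℤ) j : ℤ) : ℝ) = 0
        rw [Pi.single_eq_of_ne (fun e : j = i => hi (by rw [← e]; exact hj)), Int.cast_zero]
    exact nonneg_of_xs_mem r.2 one_ne_zero h1

theorem ex_rval_iC (i : Fin 7) {r : ℕ} (hr : r < 126) :
    rval r (tv fun j : Fin 7 => ((iC i j : ℤ) : K)) = 2 * (rt chevE7 r i : K) := by
  have h1 := chk_iC r hr i i.2
  rw [sum7] at h1
  have h3 := congrArg (Int.cast : ℤ → K) h1
  push_cast at h3
  rw [← h3]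
  exact Finset.sum_congr rfl fun j _ => mul_comm _ _

theorem ex_map_br {K' : Type u} [Field K'] (f : K →+* K') (x y : chevE7.Idx → K) :
    (fun i => f (br K x y i)) = br K' (fun i => f (x i)) fun i => f (y i) := Mu.del_injective (by
  rw [← del_map, del_br, del_br, ← del_map, ← del_map, Matrix.map_sub _ (map_sub f), Matrix.map_mul, Matrix.map_mul])

end Kf

namespace Sit

variable {p a b : ℕ} {F : Type u} {K : Type v} {k : Type u} [Field F] [Fintype F] [Field K] [Fintype K] [Field k]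
  (S : Sit p a b F K k)

include S in
theorem ex_two (hp : p ≠ 2) : (2 : k) ≠ 0 := fun h =>
  have := S.chark
  hp ((Nat.prime_dvd_prime_iff_eq S.prime Nat.prime_two).1 ((CharP.cast_eq_zero_iff k p 2).1 (by exact_mod_cast h)))

/-- **IRRL** -/
theorem ex_irrl (hp : p ≠ 2) {W : Submodule k (chevE7.Idx → k)} (hW : S.Stb (adM k) W)
    (hC : ∀ y, (∀ x ∈ W, Cm x y) → y = 0) {g : Gh k} {ν : E} (hg : ∀ x ∈ W, adM k g⁻¹ *ᵥ x ∈ Ge k ac ν 0) : ν = 0 := by
  have := S.closed
  have h2 := S.ex_two hp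
  by_contra h0
  obtain ⟨l, hl⟩ := exists_dom ν
  obtain ⟨i, hi⟩ := Function.ne_iff.1 (wL_ne (l := l) h0)
  have hU := ex_unst h2 hC (g := g * (nL k l)⁻¹) (m := Pi.single i 1) (l := fun j : Fin 7 => ((iC i j : ℤ) : k))
    (fun r hr h => by
      rw [pc, Finset.sum_eq_single i (fun j _ hj => by rw [Pi.single_eq_of_ne hj, mul_zero])
        (fun h => absurd (Finset.mem_univ _) h), Pi.single_eq_same, mul_one] at h
      rw [ex_rval_iC i hr, h, Int.cast_zero, mul_zero])
    (fun h => by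
      have h3 := ex_rval_iC (K := k) i (simple_lt7 i i.2)
      rw [h, rt_simple i i.2 i i.2, if_pos rfl, Int.cast_one, mul_one] at h3
      apply h2
      rw [← h3]
      exact Finset.sum_eq_zero fun j _ => mul_zero _)
    (fun x hx => by
      rw [_root_.mul_inv_rev, inv_inv, mulVec_mul]
      exact ex_Ge_face hl hi (ex_Ge_nL wrep_L l (hg x hx)))
  refine S.kill_unst (wrep_L.pow _) hU (fun y hy => ?_) ?_
  · exact PX_stab (fun z => adM k y *ᵥ z) (fun x : W => ⟨adM k y *ᵥ x, hW.1 y hy x x.2⟩) fun x z => adM_br h2 y x z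
  · rintro _ ⟨z, x, rfl⟩
    refine ⟨fun s i => S.s (z s i), fun t => ⟨S.sv (x t), hW.2 _ (x t).2⟩, ?_⟩
    rw [map_mnr]
    congr 1
    funext t s
    exact ex_map_br S.s _ _

end Sit

end Cfsg.Agent.E7P
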