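import Cfsg.Agent.E7P.Ex.Main
import Cfsg.Agent.E7P.Nt.Nft
import Cfsg.Agent.E7P.Br.Api

/-!
# S5932, task EXACT: the unconditional form (helper4)

* `Sit.ex_exact` : `5 ≤ p`, `SSC`, `Split` give `TorW (adM k)`.
-/

set_option autoImplicit false
set_option maxRecDepth 100000

namespace Cfsg.Agent.E7P

open Cfsg Cfsg.Lie Matrix Module
open Cfsg.Agent.R2.T1 Cfsg.Agent.E7P.Kf

universe u v

namespace Sit

variable {p a b : ℕ} {F : Type u} {K : Type v} {k : Type u} [Field F] [Fintype F] [Field K] [Fintype K] [Field k]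
  (S : Sit p a b F K k)

theorem ex_ne_bot {W : Submodule k (chevE7.Idx → k)} (h : ∃ x, ∃ y ∈ W, adM k (S.ψ x) *ᵥ y ≠ y) : W ≠ ⊥ := by
  rintro rfl
  obtain ⟨x, y, hy, h1⟩ := h
  rw [(Submodule.mem_bot k).1 hy, mulVec_zero] at h1
  exact h1 rfl

/-- **EXACT** -/
theorem ex_exact (h5 : 5 ≤ p) (hs : S.SSC) (hS : S.Split) : Nonempty (S.TorW (adM k)) := by
  obtain ⟨f⟩ := S.exists_frame
  refine S.ex_torW (by omega) (S.j1 h5) f (fun W hW h0 y hy => ?_)
    (fun W hW h0 => S.nt_expo5 h5 hs hW (S.ex_ne_bot h0)) hS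
  exact (Submodule.eq_bot_iff _).1 (S.nt_nk h5 hs hW (S.ex_ne_bot h0)) y fun x hx => (hy x hx).symm

end Sit

end Cfsg.Agent.E7P
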