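import Cfsg.Agent.E7P.Ex.Irl

/-!
# S5932, task EXACT (helper4)

* `Sit.ex_torW` : a split triple of level `≥ nn` gives a cocharacter which acts by scalars on the weight spaces.
-/

set_option autoImplicit false
set_option maxRecDepth 100000

namespace Cfsg.Agent.E7P

open Cfsg Cfsg.Lie Matrix Module
open Cfsg.Agent.H943.E7V.Block (D1 rho)
open Cfsg.Agent.R2.T1 Cfsg.Agent.E7P.Kf
open Cfsg.Agent.H943.SL2Rel (u w h)

universe u v

namespace Kf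

section
open Polynomial

theorem ex_sep {K : Type v} [Field K] [Fintype K] (h11 : 11 ≤ Fintype.card K) {k : Type u} [Field k] (τ τ' : K →+* k) :
    ¬ ∀ c : Kˣ, (τ c * τ' c) ^ 2 = 1 := by
  intro h
  have key : ∀ c : K, c * (c + 1) * ((c ^ 2 + c + 1) * (c ^ 2 + 3 * c + 1) * ((c ^ 2 - c - 1) * (c ^ 2 + c - 1))) = 0 := by
    intro c
    by_cases h0 : c = 0
    · rw [h0, zero_mul, zero_mul]
    by_cases h1 : c + 1 = 0
    · rw [h1, mul_zero, zero_mul]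
    have h2 : (τ c * τ' c) ^ 2 = 1 := h (Units.mk0 c h0)
    have h3 : (τ (c + 1) * τ' (c + 1)) ^ 2 = 1 := h (Units.mk0 _ h1)
    rw [map_add, map_add, map_one, map_one] at h3
    apply τ.injective
    simp only [map_mul, map_add, map_pow, map_sub, map_one, map_ofNat, map_zero]
    generalize τ c = x at h2 h3
    generalize τ' c = y at h2 h3
    rcases sq_eq_one_iff.1 h2 with h4 | h4 <;> rcases sq_eq_one_iff.1 h3 with h5 | h5
    · rw [show x ^ 2 + x + 1 = 0 by linear_combination x * h5 - (x + 1) * h4]; ring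
    · rw [show x ^ 2 + 3 * x + 1 = 0 by linear_combination x * h5 - (x + 1) * h4]; ring
    · rw [show x ^ 2 - x - 1 = 0 by linear_combination x * h5 - (x + 1) * h4]; ring
    · rw [show x ^ 2 + x - 1 = 0 by linear_combination x * h5 - (x + 1) * h4]; ring
  let Q : K[X] := X * (X + 1) * ((X ^ 2 + X + 1) * (X ^ 2 + 3 * X + 1) * ((X ^ 2 - X - 1) * (X ^ 2 + X - 1)))
  have h1 : Q.natDegree ≤ 10 := by
    unfold Q
    compute_degree
  have h2 : Q = 0 := eq_zero_of_natDegree_lt_card_of_eval_eq_zero' Q Finset.univ (fun c _ => by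
    rw [← key c]
    simp [Q]) (by rw [Finset.card_univ]; omega)
  have h3 : Q.Monic := by
    unfold Q
    monicity!
  exact h3.ne_zero h2

end

theorem ex_eps {K : Type v} [Field K] [Fintype K] (h11 : 11 ≤ Fintype.card K) {k : Type u} [Field k] {τ τ' : K →+* k}
    {ε ε' : ℤ} (hε : ε.natAbs ≤ 1) (hε' : ε'.natAbs ≤ 1) (h : ∀ c : Kˣ, τ c ^ (2 * ε) = τ' c ^ (2 * ε')) : ε = ε' := by
  have h0 : ∀ (τ : K →+* k) (c : Kˣ), τ c ≠ 0 := fun τ c => (map_ne_zero τ).2 c.ne_zero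
  have e1 : ∀ x : k, x ^ (2 * 1 : ℤ) = x ^ 2 := fun x => zpow_natCast x 2
  have e2 : ∀ x : k, x ^ (2 * 0 : ℤ) = 1 := fun x => zpow_zero x
  have e3 : ∀ x : k, x ^ (2 * -1 : ℤ) = (x ^ 2)⁻¹ := fun x => by rw [← e1, ← _root_.zpow_neg]; rfl
  have k1 : ∀ τ : K →+* k, ¬ ∀ c : Kˣ, τ c ^ 2 = 1 := fun τ h1 => ex_sep h11 τ τ fun c => by rw [mul_pow, h1, one_mul]
  have k2 : ∀ τ τ' : K →+* k, ¬ ∀ c : Kˣ, τ c ^ 2 = (τ' c ^ 2)⁻¹ := fun τ τ' h1 => ex_sep h11 τ τ' fun c => by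
    rw [mul_pow, h1, inv_mul_cancel₀ (pow_ne_zero 2 (h0 τ' c))]
  have h1 : ε = 1 ∨ ε = 0 ∨ ε = -1 := by omega
  have h2 : ε' = 1 ∨ ε' = 0 ∨ ε' = -1 := by omega
  rcases h1 with rfl | rfl | rfl <;> rcases h2 with rfl | rfl | rfl <;> simp only [e1, e2, e3] at h
  · rfl
  · exact (k1 τ h).elim
  · exact (k2 τ τ' h).elim
  · exact (k1 τ' fun c => (h c).symm).elim
  · rfl
  · exact (k1 τ' fun c => inv_eq_one.1 (h c).symm).elim
  · exact (k2 τ' τ fun c => (h c).symm).elim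
  · exact (k1 τ fun c => inv_eq_one.1 (h c)).elim
  · rfl

/-- eigenvectors in the span of eigenvectors -/
theorem ex_eig {k : Type u} [Field k] {M : Type*} [AddCommGroup M] [Module k M] (T : Module.End k M) {G : Set M} (a : k)
    (N : Submodule k M) (hG : ∀ y ∈ G, ∃ c, T y = c • y ∧ (c = a → y ∈ N)) {y : M} (hy : y ∈ Submodule.span k G)
    (ha : T y = a • y) : y ∈ N := by
  have h1 : Submodule.span k G ≤ (N ⊓ T.eigenspace a) ⊔ ⨆ c, ⨆ (_ : c ≠ a), T.eigenspace c := by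
    rw [Submodule.span_le]
    intro z hz
    obtain ⟨c, h1, h2⟩ := hG z hz
    by_cases hc : c = a
    · exact Submodule.mem_sup_left ⟨h2 hc, Module.End.mem_eigenspace_iff.2 (hc ▸ h1)⟩
    · exact Submodule.mem_sup_right (Submodule.mem_iSup_of_mem c (Submodule.mem_iSup_of_mem hc
        (Module.End.mem_eigenspace_iff.2 h1)))
  obtain ⟨y1, h2, y2, h3, e⟩ := Submodule.mem_sup.1 (h1 hy)
  have h4 : y2 ∈ T.eigenspace a := by
    rw [show y2 = y - y1 by rw [← e]; abel]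
    exact sub_mem (Module.End.mem_eigenspace_iff.2 ha) h2.2
  have h5 : y2 = 0 := (Submodule.disjoint_def.1 (T.eigenspaces_iSupIndep a)) y2 h4 h3
  rw [← e, h5, add_zero]
  exact h2.1

end Kf

namespace Sit

variable {p a b : ℕ} {F : Type u} {K : Type v} {k : Type u} [Field F] [Fintype F] [Field K] [Fintype K] [Field k]
  (S : Sit p a b F K k)

theorem ex_mem_Fg {d : ℝ} {y : chevE7.Idx → k} : y ∈ S.Fg d ↔ adM k S.g0⁻¹ *ᵥ y ∈ Ge k ac S.β d := Iff.rfl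

theorem ex_Fg_P {n : Gh k} (hn : n ∈ S.P) {d : ℝ} {y : chevE7.Idx → k} (hy : y ∈ S.Fg d) : adM k n *ᵥ y ∈ S.Fg d := by
  have h1 := wrep_L.Ge_stab (S.mem_P.1 hn) (S.ex_mem_Fg.1 hy)
  rw [← mulVec_mul, mul_inv_cancel_right, mulVec_mul] at h1
  exact h1

theorem ex_Fg_sv {d : ℝ} {y : chevE7.Idx → k} (hy : y ∈ S.Fg d) : S.sv y ∈ S.Fg d := by
  have h1 : S.sv (adM k S.g0⁻¹ *ᵥ y) ∈ Ge k ac S.β d := fun i hi => hy i fun h0 => hi (by
    show S.s ((adM k S.g0⁻¹ *ᵥ y) i) = 0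
    rw [show (adM k S.g0⁻¹ *ᵥ y) i = 0 from h0, map_zero])
  have h2 := wrep_L.Ge_stab S.g0_σ h1
  rw [S.sv_mulVec wrep_L, ← mulVec_mul, map_inv, mul_inv_cancel_right] at h2
  exact h2

/-- the vectors of the weights `2, 0, -2` with the expected levels -/
def exG : Set (chevE7.Idx → k) := {y | ∃ (τ : K →+* k) (ε : ℤ), ε.natAbs ≤ 1 ∧
  (∀ c : Kˣ, adM k (S.ψ (h c)) *ᵥ y = τ c ^ (2 * ε) • y) ∧ y ∈ S.Fg (ε * S.nn) ∧
    adM k (S.ψ w)⁻¹ *ᵥ y ∈ S.Fg (-(ε * S.nn))}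

/-- the largest `A`-submodule in their span -/
noncomputable def exW : Submodule k (chevE7.Idx → k) :=
  ⨅ x, (Submodule.span k S.exG).comap (toLin' (adM k (S.ψ x)))

theorem ex_mem_W {y : chevE7.Idx → k} : y ∈ S.exW ↔ ∀ x, adM k (S.ψ x) *ᵥ y ∈ Submodule.span k S.exG := by
  rw [exW, Submodule.mem_iInf]
  rfl

theorem ex_W_le {y : chevE7.Idx → k} (hy : y ∈ S.exW) : y ∈ Submodule.span k S.exG := by
  have h1 := S.ex_mem_W.1 hy 1
  rwa [map_one, map_one, one_mulVec] at h1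

theorem ex_G_NB {n : Gh k} (hn : S.NB n) {y : chevE7.Idx → k} (hy : y ∈ S.exG) : adM k n *ᵥ y ∈ S.exG := by
  obtain ⟨τ, ε, hε, h1, h2, h3⟩ := hy
  obtain ⟨c0, τ0, h4⟩ := hn.inv.2
  refine ⟨τ.comp τ0, ε, hε, fun c => ?_, S.ex_Fg_P hn.mem_P h2, ?_⟩
  · have h5 := h4 (h c)
    rw [aut_h, inv_inv] at h5
    rw [← mulVec_mul, show S.ψ (h c) * n = n * (n⁻¹ * S.ψ (h c) * n) by group, ← h5, mulVec_mul, h1, mulVec_smul]
    rfl
  · have h5 := S.ex_Fg_P (S.mem_P'.1 hn.mem_P') h3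
    rwa [← mulVec_mul, mul_inv_cancel_right, mulVec_mul] at h5

theorem ex_G_sv {y : chevE7.Idx → k} (hy : y ∈ S.exG) : S.sv y ∈ S.exG := by
  obtain ⟨τ, ε, hε, h1, h2, h3⟩ := hy
  refine ⟨S.s.comp τ, ε, hε, fun c => ?_, S.ex_Fg_sv h2, ?_⟩
  · rw [← S.k_σ_ψ, ← S.sv_mulVec wrep_L, h1]
    funext i
    show S.s (τ c ^ (2 * ε) * y i) = S.s (τ c) ^ (2 * ε) * S.s (y i)
    rw [map_mul, map_zpow₀]
  · have h5 := S.ex_Fg_sv h3
    rwa [S.sv_mulVec wrep_L, map_inv, S.k_σ_ψ] at h5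

theorem ex_stb : S.Stb (adM k) S.exW := by
  refine ⟨fun m hm y hy => S.ex_mem_W.2 fun x => ?_, fun y hy => S.ex_mem_W.2 fun x => ?_⟩
  · obtain ⟨n, x0, hn, rfl⟩ := S.exists_NB hm
    obtain ⟨x', h1⟩ := S.norm_ψ (inv_mem hn.1) x
    rw [← mulVec_mul, show S.ψ x * (n * S.ψ x0) = n * (n⁻¹ * S.ψ x * n⁻¹⁻¹ * S.ψ x0) by group, h1, ← map_mul, mulVec_mul]
    have h2 := Submodule.mem_map_of_mem (f := toLin' (adM k n)) (S.ex_mem_W.1 hy (x' * x0))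
    rw [Submodule.map_span] at h2
    refine Submodule.span_mono ?_ h2
    rintro _ ⟨z, hz, rfl⟩
    exact S.ex_G_NB hn hz
  · rw [← S.k_σ_ψ, ← S.sv_mulVec wrep_L]
    have h1 := S.ex_mem_W.1 hy x
    generalize adM k (S.ψ x) *ᵥ y = z at h1
    induction h1 using Submodule.span_induction with
    | mem z hz => exact Submodule.subset_span (S.ex_G_sv hz)
    | zero =>
      rw [show S.sv (0 : chevE7.Idx → k) = 0 from funext fun _ => map_zero S.s]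
      exact zero_mem _
    | add z z' _ _ h1 h2 =>
      rw [show S.sv (z + z') = S.sv z + S.sv z' from funext fun _ => map_add S.s _ _]
      exact add_mem h1 h2
    | smul t z _ h1 =>
      rw [show S.sv (t • z) = S.s t • S.sv z from funext fun _ => map_mul S.s _ _]
      exact Submodule.smul_mem _ _ h1

section
variable {S} {j : ℕ} {e x f : chevE7.Idx → k} (T : S.Tri j e x f)
include T

theorem Tri.ex_wf : adM k (S.ψ w) *ᵥ f = - e := by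
  have h1 := T.he (-1)
  rw [← H943.SL2Rel.w_w, map_mul, mulVec_mul, T.we, mulVec_neg, ← pow_mul, mul_comm, pow_mul, Units.val_neg,
    Units.val_one, map_neg, map_one, neg_one_sq, one_pow, one_smul] at h1
  rw [← h1, neg_neg]

theorem Tri.ex_hf (c : Kˣ) : adM k (S.ψ (h c)) *ᵥ f = ((S.ι c ^ p ^ j) ^ 2)⁻¹ • f := by
  have h1 : adM k (S.ψ (h c * w)) *ᵥ e = adM k (S.ψ (w * h c⁻¹)) *ᵥ e := by rw [H943.SL2Rel.h_w]
  rw [map_mul S.ψ, map_mul S.ψ, mulVec_mul, mulVec_mul, T.we, T.he, mulVec_neg, mulVec_smul, T.we, smul_neg, neg_inj,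
    Units.val_inv_eq_inv_val, map_inv₀, inv_pow, inv_pow] at h1
  exact h1

theorem Tri.ex_hx (c : Kˣ) : adM k (S.ψ (h c)) *ᵥ x = x := by
  have h0 : S.ι c ^ p ^ j ≠ 0 := pow_ne_zero _ ((map_ne_zero S.ι).2 c.ne_zero)
  have h1 : adM k (S.ψ (h c * u 1)) *ᵥ f = adM k (S.ψ (u ((c : K) ^ 2 * 1) * h c)) *ᵥ f := by rw [H943.SL2Rel.h_u]
  rw [map_mul S.ψ, map_mul S.ψ, mulVec_mul, mulVec_mul, T.uf, T.ex_hf, mulVec_sub, mulVec_add, mulVec_smul, mulVec_smul,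
    mulVec_smul, T.uf, T.ex_hf, T.he, mul_one, map_one, one_pow, one_pow, one_smul, one_smul, map_pow,
    pow_right_comm _ 2] at h1
  generalize S.ι c ^ p ^ j = t at h0 h1
  have h2 : (t ^ 2)⁻¹ • (f + t ^ 2 • x - (t ^ 2) ^ 2 • e) = (t ^ 2)⁻¹ • f + x - t ^ 2 • e := by
    rw [smul_sub, smul_add, smul_smul, smul_smul, inv_mul_cancel₀ (pow_ne_zero 2 h0), one_smul, sq (t ^ 2),
      inv_mul_cancel_left₀ (pow_ne_zero 2 h0)]
  rw [h2] at h1
  exact add_left_cancel (sub_left_injective h1)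

/-- the span of a triple is a submodule -/
theorem Tri.ex_stab {N : Submodule k (chevE7.Idx → k)} (he : e ∈ N) (hx : x ∈ N) (hf : f ∈ N)
    (g : SpecialLinearGroup (Fin 2) K) : adM k (S.ψ g) *ᵥ e ∈ N := by
  have h1 : ∀ g : SpecialLinearGroup (Fin 2) K, ∀ y ∈ Submodule.span k {e, x, f},
      adM k (S.ψ g) *ᵥ y ∈ Submodule.span k {e, x, f} := by
    have he' : e ∈ Submodule.span k {e, x, f} := Submodule.subset_span (Or.inl rfl)
    have hx' : x ∈ Submodule.span k {e, x, f} := Submodule.subset_span (Or.inr (Or.inl rfl))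
    have hf' : f ∈ Submodule.span k {e, x, f} := Submodule.subset_span (Or.inr (Or.inr rfl))
    have key : ∀ g : SpecialLinearGroup (Fin 2) K, adM k (S.ψ g) *ᵥ e ∈ Submodule.span k {e, x, f} →
        adM k (S.ψ g) *ᵥ x ∈ Submodule.span k {e, x, f} → adM k (S.ψ g) *ᵥ f ∈ Submodule.span k {e, x, f} →
        ∀ y ∈ Submodule.span k {e, x, f}, adM k (S.ψ g) *ᵥ y ∈ Submodule.span k {e, x, f} := by
      intro g h1 h2 h3 y hy
      have h4 : Submodule.span k {e, x, f} ≤ (Submodule.span k {e, x, f}).comap (toLin' (adM k (S.ψ g))) := by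
        rw [Submodule.span_le]
        rintro _ (rfl | rfl | rfl)
        · exact h1
        · exact h2
        · exact h3
      exact h4 hy
    refine H943.SL2Rel.induct (fun t => key _ ?_ ?_ ?_) (fun c => key _ ?_ ?_ ?_) (key _ ?_ ?_ ?_)
      fun g g' hg hg' y hy => ?_
    · rw [T.ue]; exact he'
    · rw [T.ux]; exact sub_mem hx' (Submodule.smul_mem _ _ he')
    · rw [T.uf]; exact sub_mem (add_mem hf' (Submodule.smul_mem _ _ hx')) (Submodule.smul_mem _ _ he')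
    · rw [T.he]; exact Submodule.smul_mem _ _ he'
    · rw [T.ex_hx]; exact hx'
    · rw [T.ex_hf]; exact Submodule.smul_mem _ _ hf'
    · rw [T.we]; exact neg_mem hf'
    · rw [T.wx]; exact neg_mem hx'
    · rw [T.ex_wf]; exact neg_mem he'
    · rw [map_mul, mulVec_mul]
      exact hg _ (hg' y hy)
  refine (Submodule.span_le.2 ?_ : Submodule.span k {e, x, f} ≤ N) (h1 g e (Submodule.subset_span (Or.inl rfl)))
  rintro _ (rfl | rfl | rfl)
  · exact he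
  · exact hx
  · exact hf

theorem Tri.ex_mem (hJ : S.J1) (he : e ∈ S.Fg S.nn) : e ∈ S.exW := by
  have := S.chark
  have : Fact p.Prime := ⟨S.prime⟩
  have hx : x ∈ S.Fg 0 := by
    have h1 := hJ x S.nn le_rfl fun t => by
      rw [T.ux, sub_sub_cancel_left]
      exact neg_mem (Submodule.smul_mem _ _ he)
    rwa [sub_self] at h1
  have hf : f ∈ S.Fg (-S.nn) := by
    have h1 := hJ f 0 S.nn_pos.le fun t => by
      rw [T.uf, sub_right_comm, add_sub_cancel_left]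
      exact sub_mem (Submodule.smul_mem _ _ hx) (Submodule.smul_mem _ _ (Br.Ge_mono S.nn_pos.le he))
    rwa [zero_sub] at h1
  have hw : ∀ y z : chevE7.Idx → k, adM k (S.ψ w) *ᵥ y = - z → adM k (S.ψ w)⁻¹ *ᵥ z = - y := fun y z h1 => by
    rw [← neg_neg z, ← h1, mulVec_neg, mulVec_inv]
  let τ : K →+* k := (iterateFrobenius k p j).comp S.ι
  refine S.ex_mem_W.2 (T.ex_stab (Submodule.subset_span ⟨τ, 1, le_rfl, fun c => ?_, ?_, ?_⟩)
    (Submodule.subset_span ⟨τ, 0, zero_le_one, fun c => ?_, ?_, ?_⟩)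
    (Submodule.subset_span ⟨τ, -1, le_rfl, fun c => ?_, ?_, ?_⟩))
  · rw [T.he]
    exact congrArg (· • e) (zpow_natCast _ 2).symm
  · rwa [Int.cast_one, one_mul]
  · rw [Int.cast_one, one_mul, hw f e T.ex_wf]
    exact neg_mem hf
  · rw [T.ex_hx, mul_zero, zpow_zero, one_smul]
  · rwa [Int.cast_zero, zero_mul]
  · rw [Int.cast_zero, zero_mul, neg_zero, hw x x T.wx]
    exact neg_mem hx
  · rw [T.ex_hf]
    exact congrArg (· • f) (zpow_neg_coe_of_pos _ two_pos).symm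
  · rwa [Int.cast_neg, Int.cast_one, neg_one_mul]
  · rw [Int.cast_neg, Int.cast_one, neg_one_mul, neg_neg, hw e f T.we]
    exact neg_mem he

theorem Tri.ex_move : ∃ g, adM k (S.ψ g) *ᵥ e ≠ e := by
  have := S.chark
  have : Fact p.Prime := ⟨S.prime⟩
  by_contra h0
  push Not at h0
  let τ : K →+* k := (iterateFrobenius k p j).comp S.ι
  refine ex_sep (S.cardK ▸ S.eleven) τ τ fun c => ?_
  have h1 := h0 (h c)
  rw [T.he] at h1
  have h2 : (S.ι c ^ p ^ j) ^ 2 = 1 := smul_left_injective k T.ne (h1.trans (one_smul k e).symm)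
  show (S.ι c ^ p ^ j * S.ι c ^ p ^ j) ^ 2 = 1
  rw [mul_pow, h2, one_mul]

end

variable {S} in
theorem Frame.ex_F' (f : S.Frame) {d : ℝ} {y : chevE7.Idx → k} (hy : adM k (S.ψ w)⁻¹ *ᵥ y ∈ S.Fg d) :
    adM k f.g⁻¹ *ᵥ y ∈ Ge k ac f.β' d := by
  have := S.closed
  have h1 := ex_Ge_nL wrep_L f.l (wrep_L.Ge_stab f.hw (f.mem_Fg.1 hy))
  rwa [← mulVec_mul, ← mulVec_mul, ← mulVec_mul,
    show nL k f.l * ((f.g * nL k f.l)⁻¹ * S.ψ w * f.g) * f.g⁻¹ * (S.ψ w)⁻¹ = f.g⁻¹ by group] at h1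

/-- **EXACT** -/
theorem ex_torW (hp : p ≠ 2) (hJ : S.J1) (f : S.Frame)
    (hNK : ∀ W, S.Stb (adM k) W → (∃ x, ∃ y ∈ W, adM k (S.ψ x) *ᵥ y ≠ y) → ∀ y, (∀ x ∈ W, Cm x y) → y = 0)
    (hEX : ∀ W, S.Stb (adM k) W → (∃ x, ∃ y ∈ W, adM k (S.ψ x) *ᵥ y ≠ y) →
      ∃ N : ℕ, (N : k) ≠ 0 ∧ ∀ c, (∀ y ∈ W, adM k c *ᵥ y = y) → c ^ N = 1)
    (hS : S.Split) : Nonempty (S.TorW (adM k)) := by
  obtain ⟨j, e, x, f0, -, T, he⟩ := hS
  have hmv : ∃ x, ∃ y ∈ S.exW, adM k (S.ψ x) *ᵥ y ≠ y := by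
    obtain ⟨g, hg⟩ := T.ex_move
    exact ⟨g, e, T.ex_mem hJ he, hg⟩
  have hν : S.β + f.β' = 0 := by
    refine S.ex_irrl hp S.ex_stb (hNK _ S.ex_stb hmv) (g := f.g) fun y hy => ?_
    have h1 : Submodule.span k S.exG ≤ (Ge k ac (S.β + f.β') 0).comap (toLin' (adM k f.g⁻¹)) := by
      rw [Submodule.span_le]
      rintro z ⟨τ, ε, -, -, h2, h3⟩ i hi
      have h4 := f.mem_Fg.1 h2 i hi
      have h5 := f.ex_F' h3 i hi
      rw [map_add, LinearMap.add_apply]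
      linarith
    exact h1 (S.ex_W_le hy)
  obtain ⟨m, hm⟩ := rat_le ac S.β
  refine ⟨⟨S.exW, S.ex_stb, hEX _ S.ex_stb hmv, f.g, m, fun h0 => ?_, fun z => f.mem0 _, fun θ => ?_⟩⟩
  · have h1 := (hm (Sum.inr ⟨125, by decide⟩) (Sum.inl ⟨0, by decide⟩)).1 (by
      rw [h0, bf_lE, bf_lE]
      simp)
    rw [ex_cv_inr, ac_inl, cv_zero, map_zero] at h1
    exact absurd (S.β_dom.top_pos S.β_ne) (not_lt.2 h1)
  obtain ⟨c0, hc0⟩ := IsCyclic.exists_generator (α := Kˣ)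
  obtain ⟨ε0, hε0⟩ : ∃ ε0 : ℤ, ∀ (τ : K →+* k) (ε : ℤ), ε.natAbs ≤ 1 → τ c0 ^ (2 * ε) = θ c0 → ε = ε0 := by
    by_cases h1 : ∃ (τ : K →+* k) (ε : ℤ), ε.natAbs ≤ 1 ∧ τ c0 ^ (2 * ε) = θ c0
    · obtain ⟨τ', ε', h1, h2⟩ := h1
      refine ⟨ε', fun τ ε h3 h4 => ex_eps (S.cardK ▸ S.eleven) (τ := τ) (τ' := τ') h3 h1 fun c => ?_⟩
      obtain ⟨n, rfl⟩ := hc0 c
      have h5 : ∀ (τ : K →+* k) (ε : ℤ), τ ((c0 ^ n : Kˣ) : K) ^ (2 * ε) = (τ c0 ^ (2 * ε)) ^ n := fun τ ε => by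
        rw [Units.val_zpow_eq_zpow_val, map_zpow₀, ← _root_.zpow_mul, ← _root_.zpow_mul, mul_comm]
      show τ ((c0 ^ n : Kˣ) : K) ^ (2 * ε) = τ' ((c0 ^ n : Kˣ) : K) ^ (2 * ε')
      rw [h5, h5, h4, h2]
    · exact ⟨0, fun τ ε h2 h3 => absurd ⟨τ, ε, h2, h3⟩ h1⟩
  obtain ⟨n, hn⟩ : ∃ n : ℤ, ∀ i, bf S.β (cv (ac i)) = ε0 * S.nn → ∑ t, ac i t * m t = n := by
    by_cases h1 : ∃ i, bf S.β (cv (ac i)) = ε0 * S.nn
    · obtain ⟨i0, h1⟩ := h1
      refine ⟨∑ t, ac i0 t * m t, fun i hi => ?_⟩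
      have h2 := le_antisymm ((hm i i0).2 (hi.trans h1.symm).le) ((hm i0 i).2 (h1.trans hi.symm).le)
      rw [bf_lE, bf_lE] at h2
      exact_mod_cast h2
    · exact ⟨0, fun i hi => absurd ⟨i, hi⟩ h1⟩
  refine ⟨n, fun y hy hθ z => ?_⟩
  have h1 : y ∈ (Br.Lv k ac S.β (ε0 * S.nn)).comap (toLin' (adM k f.g⁻¹)) := by
    refine ex_eig (toLin' (adM k (S.ψ (h c0)))) (θ c0) _ ?_ (S.ex_W_le hy) (hθ c0)
    rintro z ⟨τ, ε, h2, h3, h4, h5⟩
    refine ⟨_, h3 c0, fun h6 => ?_⟩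
    rw [← hε0 τ ε h2 h6]
    refine Br.Lv_of_Ge (f.mem_Fg.1 h4) ?_
    rw [← eq_neg_of_add_eq_zero_right hν]
    exact f.ex_F' h5
  have h2 : adM k (Phi k (lam m z)) *ᵥ (adM k f.g⁻¹ *ᵥ y) = ((z ^ n : kˣ) : k) • (adM k f.g⁻¹ *ᵥ y) := by
    funext i
    rw [wrep_L.tor, mulVec_diagonal, Pi.smul_apply, smul_eq_mul]
    by_cases h3 : (adM k f.g⁻¹ *ᵥ y) i = 0
    · rw [h3, mul_zero, mul_zero]
    · rw [ch_lam, hn i (h1 i h3)]
  rw [mulVec_mul, mulVec_mul, h2, mulVec_smul, mulVec_inv']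

end Sit

end Cfsg.Agent.E7P
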